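import Cfsg.Agent.H533.Wf.Kills

/-!
# S3826: sections of proper subgroups in other universes

* `QS.of_map` : `QS` passes to preimages under injective homomorphisms;
* `Cfg.false_of_hom'` : `Cfg.false_of_hom` for a homomorphism (not necessarily surjective) to a group in any
  universe.
-/

set_option autoImplicit false
set_option linter.unusedSectionVars false

namespace Cfsg.Agent.H12.WfO

universe u v w

open Subgroup Cfsg Cfsg.Agent.H533.Wf

section

variable {X : Type u} [Group X] {Y : Type w} [Group Y]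

theorem qs_comap {ι : X →* Y} (hι : Function.Injective ι) {L : Subgroup Y} (hL : QS L) (hr : L ≤ ι.range) :
    QS (L.comap ι) := by
  have hmap : (L.comap ι).map ι = L := by
    rw [Subgroup.map_comap_eq, inf_eq_right.mpr hr]
  refine ⟨?_, ?_, ?_⟩
  · apply Subgroup.map_injective hι
    rw [Subgroup.map_commutator, hmap, hL.perfect]
  · intro h
    apply hL.ne
    rw [← hmap, h, Subgroup.map_bot]
  · intro N hN hn
    have h1 : N.map ι ≤ L := by rw [← hmap]; exact Subgroup.map_mono hN
    have h2 : L ≤ Subgroup.normalizer ((N.map ι : Subgroup Y) : Set Y) := by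
      intro l hl
      obtain ⟨x, rfl⟩ := hr hl
      rw [Subgroup.mem_normalizer_iff]
      have h3 := hn (show x ∈ L.comap ι from hl)
      rw [Subgroup.mem_normalizer_iff] at h3
      intro y
      constructor
      · rintro ⟨z, hz, rfl⟩
        exact ⟨_, (h3 z).mp hz, by simp⟩
      · rintro ⟨z, hz, hzy⟩
        refine ⟨x⁻¹ * z * x, (h3 _).mpr ?_, ?_⟩
        · have : x * (x⁻¹ * z * x) * x⁻¹ = z := by group
          rw [this]; exact hz
        · rw [map_mul, map_mul, map_inv, hzy]; group
    rcases hL.norm _ h1 h2 with h | h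
    · left
      apply Subgroup.map_injective hι
      rw [h, hmap]
    · right
      intro x hx
      rw [Subgroup.mem_centralizer_iff]
      intro l hl
      have h4 := Subgroup.mem_centralizer_iff.1 (h ⟨x, hx, rfl⟩) (ι l) hl
      apply hι
      rw [map_mul, map_mul]
      exact h4

end

variable {p : ℕ} {G : Type u} [Group G] [Finite G] {S : Subgroup G} {C D : Set G}

/-- Homomorphisms of proper subgroups. -/
theorem false_of_hom' [Fact p.Prime] (h : Cfg p S C D) {H : Subgroup G} (hH : H ≠ ⊤)
    {Y : Type w} [Group Y] (φ : H →* Y) {L : Subgroup Y} (hLr : L ≤ φ.range)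
    (hLn : L.Normal) (hL : QS L) {c d : G} (hc : c ∈ C) (hd : d ∈ D) (hcH : c ∈ H) (hdH : d ∈ H)
    (hcL : φ ⟨c, hcH⟩ ∉ Subgroup.centralizer (L : Set Y))
    (hdL : φ ⟨d, hdH⟩ ∉ Subgroup.centralizer (L : Set Y)) : False := by
  let ι : H ⧸ φ.ker →* Y := QuotientGroup.kerLift φ
  have hι : Function.Injective ι := QuotientGroup.kerLift_injective φ
  have hr : L ≤ ι.range := by
    intro l hl
    obtain ⟨x, rfl⟩ := hLr hl
    exact ⟨QuotientGroup.mk x, QuotientGroup.kerLift_mk φ x⟩
  have hcent : ∀ x : H, φ x ∉ Subgroup.centralizer (L : Set Y) →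
      QuotientGroup.mk' φ.ker x ∉ Subgroup.centralizer ((L.comap ι : Subgroup (H ⧸ φ.ker)) : Set (H ⧸ φ.ker)) := by
    intro x hx hx'
    apply hx
    rw [Subgroup.mem_centralizer_iff] at hx' ⊢
    intro l hl
    obtain ⟨z, rfl⟩ := hr hl
    have h1 := congrArg ι (hx' z hl)
    rw [map_mul, map_mul] at h1
    exact h1
  exact h.false_of_hom hH (QuotientGroup.mk' φ.ker) (QuotientGroup.mk'_surjective _) (L := L.comap ι)
    (hLn.comap ι) (qs_comap hι hL hr) hc hd hcH hdH (hcent _ hcL) (hcent _ hdL)

/-- The homomorphism of the preimage of the image of `f` induced by `k`. -/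
theorem exists_hom {A : Type*} {X : Type*} {Y : Type*} {B : Type*} [Group A] [Group X] [Group Y] [Group B]
    (f : A →* X) (k : A →* Y) (hker : f.ker ≤ k.ker) (φ : B →* X) :
    ∃ ψ : (f.range.comap φ : Subgroup B) →* Y, ∀ (b : (f.range.comap φ : Subgroup B)) (a : A), f a = φ b → ψ b = k a := by
  let k' : A ⧸ f.ker →* Y := QuotientGroup.lift f.ker k hker
  let e : A ⧸ f.ker ≃* f.range := QuotientGroup.quotientKerEquivRange f
  let φ' : (f.range.comap φ : Subgroup B) →* f.range :=
    (φ.comp (Subgroup.subtype _)).codRestrict f.range (fun b => b.2)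
  refine ⟨k'.comp (e.symm.toMonoidHom.comp φ'), fun b a hab => ?_⟩
  have h1 : φ' b = e (QuotientGroup.mk a) := by
    apply Subtype.ext
    exact hab.symm
  rw [MonoidHom.comp_apply, MonoidHom.comp_apply, h1]
  show k' (e.symm (e (QuotientGroup.mk a))) = k a
  rw [MulEquiv.symm_apply_apply]
  exact QuotientGroup.lift_mk _ _ _

end Cfsg.Agent.H12.WfO
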