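import Cfsg.Agent.H12.WfO.Pt
import Cfsg.Agent.H12.WfO.Hom

/-!
# S3826, orthogonal groups in characteristic three: pairs of semisimilitudes
-/

set_option autoImplicit false
set_option linter.unusedSectionVars false

namespace Cfsg.Agent.H12.WfO

universe u

open QuadraticMap hiding proj
open Module Cfsg.Agent.LieClassical.OrthCore Cfsg.Agent.LieClassical.OrthTrans
open Cfsg.Agent.ClassicalGeometry.OrthSemi Cfsg.Agent.ClassicalGeometry.OrthAut1
open Cfsg.Agent.H951 (Frm Nd Inv)
open Cfsg.Agent.H862.T5.OBase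
open Cfsg.Agent.H208.Parity (ofO)
open Cfsg.Agent.H533.Wf

section act

variable {G : Type*} [Group G] {S : Subgroup G} {K : Type*} [Group K]

/-- the action on the socle -/
def act (hS : S.Normal) (e : S ≃* K) : G →* MulAut K :=
  haveI := hS
  (MulAut.congr e).toMonoidHom.comp MulAut.conjNormal

theorem act_apply (hS : S.Normal) (e : S ≃* K) (g : G) (s : S) :
    act hS e g (e s) = e ⟨g * s * g⁻¹, hS.conj_mem s s.2 g⟩ := by
  haveI := hS
  show e (MulAut.conjNormal g (e.symm (e s))) = _
  rw [e.symm_apply_apply]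
  congr 1

theorem act_coe (hS : S.Normal) (e : S ≃* K) (s : S) : act hS e s = MulAut.conj (e s) := by
  ext x
  obtain ⟨t, rfl⟩ := e.surjective x
  rw [act_apply, MulAut.conj_apply, ← map_inv, ← map_mul, ← map_mul]
  rfl

theorem act_injective (hS : S.Normal) (e : S ≃* K) (hc : Subgroup.centralizer (S : Set G) = ⊥) :
    Function.Injective (act hS e) := by
  rw [injective_iff_map_eq_one]
  intro g hg
  have h1 : g ∈ Subgroup.centralizer (S : Set G) := by
    rw [Subgroup.mem_centralizer_iff]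
    intro s hs
    have h2 := act_apply hS e g ⟨s, hs⟩
    rw [hg, MulAut.one_apply] at h2
    have h3 : s = g * s * g⁻¹ := congrArg Subtype.val (e.injective h2)
    calc s * g = (g * s * g⁻¹) * g := by rw [← h3]
      _ = g * s := by group
  rwa [hc, Subgroup.mem_bot] at h1

end act

section simple

variable {K : Type*} [Group K]

theorem normal_inn : (MulAut.conj : K →* MulAut K).range.Normal := by
  constructor
  rintro _ ⟨x, rfl⟩ α
  refine ⟨α x, ?_⟩
  ext y
  simp only [MulAut.conj_apply, MulAut.mul_apply, map_mul, map_inv, MulAut.apply_inv_self]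

theorem center_bot [IsSimpleGroup K] (hnc : ¬ IsMulCommutative K) : Subgroup.center K = ⊥ := by
  rcases (inferInstance : (Subgroup.center K).Normal).eq_bot_or_eq_top with h | h
  · exact h
  · refine absurd ⟨⟨fun a b => ?_⟩⟩ hnc
    have h1 : b ∈ Subgroup.center K := by rw [h]; exact Subgroup.mem_top b
    exact Subgroup.mem_center_iff.1 h1 a

theorem conj_injective [IsSimpleGroup K] (hnc : ¬ IsMulCommutative K) :
    Function.Injective (MulAut.conj : K →* MulAut K) := by
  rw [injective_iff_map_eq_one]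
  intro x hx
  have h1 : x ∈ Subgroup.center K := by
    rw [Subgroup.mem_center_iff]
    intro y
    have h2 := DFunLike.congr_fun hx y
    rw [MulAut.conj_apply, MulAut.one_apply] at h2
    calc y * x = (x * y * x⁻¹) * x := by rw [h2]
      _ = x * y := by group
  rwa [center_bot hnc, Subgroup.mem_bot] at h1

theorem qs_inn [IsSimpleGroup K] (hnc : ¬ IsMulCommutative K) : QS (MulAut.conj : K →* MulAut K).range := by
  let e : K ≃* (MulAut.conj : K →* MulAut K).range := MonoidHom.ofInjective (conj_injective hnc)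
  have : IsSimpleGroup (MulAut.conj : K →* MulAut K).range := by
    have := e.symm.toEquiv.nontrivial
    exact IsSimpleGroup.isSimpleGroup_of_surjective e.toMonoidHom e.surjective
  refine QS.of_simple this fun h => hnc ⟨⟨fun a b => ?_⟩⟩
  apply e.injective
  rw [map_mul, map_mul]
  exact h.is_comm.comm _ _

theorem not_mem_centralizer_inn [IsSimpleGroup K] (hnc : ¬ IsMulCommutative K) {α : MulAut K} (h : α ≠ 1) :
    α ∉ Subgroup.centralizer ((MulAut.conj : K →* MulAut K).range : Set (MulAut K)) := by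
  intro hα
  apply h
  rw [Subgroup.mem_centralizer_iff] at hα
  ext x
  apply conj_injective hnc
  have h1 := hα (MulAut.conj x) ⟨x, rfl⟩
  have h2 : MulAut.conj (α x) = α * MulAut.conj x * α⁻¹ := by
    ext y
    simp only [MulAut.conj_apply, MulAut.mul_apply, map_mul, map_inv, MulAut.apply_inv_self]
  rw [h2, ← h1, mul_inv_cancel_right]
  rfl

end simple

variable {F V : Type*} [Field F] [Finite F] [AddCommGroup V] [Module F V] [FiniteDimensional F V]
  {Q : QuadraticForm F V}

theorem not_comm (hG : Good Q) : ¬ IsMulCommutative (P Q) := by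
  intro h
  have hs : IsSimpleGroup (P Q) := LieClassical.OrthSimple.good_isSimpleGroup hG
  have h1 : commutator (P Q) = ⊤ := by
    have h2 : commutator ↥(E Q) = ⊤ := by
      apply Subgroup.map_injective (E Q).subtype_injective
      rw [Subgroup.map_subtype_commutator, hG.E_perfect, ← MonoidHom.range_eq_map, Subgroup.range_subtype]
    have h3 := Subgroup.map_commutator (⊤ : Subgroup ↥(E Q)) ⊤ (QuotientGroup.mk' (Subgroup.center ↥(E Q)))
    rw [Subgroup.map_top_of_surjective _ (QuotientGroup.mk'_surjective _)] at h3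
    rw [commutator_def] at h2 ⊢
    rw [← h3, h2, Subgroup.map_top_of_surjective _ (QuotientGroup.mk'_surjective _)]
  have h2 : commutator (P Q) = ⊥ := by
    rw [commutator_def, Subgroup.commutator_eq_bot_iff_le_centralizer]
    intro x _
    rw [Subgroup.mem_centralizer_iff]
    intro y _
    exact h.is_comm.comm y x
  rw [h1] at h2
  exact top_ne_bot h2

variable {G : Type u} [Group G] [Finite G] {S : Subgroup G} {C D : Set G}

/-- **Pairs of semisimilitudes.** -/
theorem false_of_gam (h3F : (3 : F) = 0) (hG : Good Q) (h7 : 7 ≤ finrank F V) (h : Cfg 3 S C D) (e : S ≃* P Q)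
    {c d : G} (hc : c ∈ C) (hd : d ∈ D) (hcG : act h.normal e c ∈ (Psi Q).range)
    (hdG : act h.normal e d ∈ (Psi Q).range) : False := by
  have := Fact.mk Nat.prime_three
  have hinj := act_injective h.normal e h.cent
  have hgp : ∀ c : G, orderOf c = 3 → act h.normal e c ∈ (Psi Q).range →
      ∃ M : Gam Q, Psi Q M = act h.normal e c ∧ ∃ x, GP Q M x := by
    rintro c hc3 ⟨M, hM⟩
    obtain ⟨M', hM', x, hx⟩ := exists_gp h3F hG h7 (M := M)
      (by
        have h2 : c ^ 3 = 1 := by
          have h3 := pow_orderOf_eq_one c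
          rwa [hc3] at h3
        rw [hM, ← map_pow, h2, map_one])
      (by
        rw [hM]
        intro h1
        rw [← map_one (act h.normal e)] at h1
        rw [hinj h1, orderOf_one] at hc3
        exact absurd hc3 (by norm_num))
    exact ⟨M', hM'.trans hM, x, hx⟩
  obtain ⟨M, hM, x, hx⟩ := hgp c (h.ordC c hc) hcG
  obtain ⟨N, hN, z, hz⟩ := hgp d (h.ordD d hd) hdG
  obtain ⟨T, hT, hTz⟩ := hG.trans_sing hz.sing hx.sing hz.ne hx.ne
  set g : S := e.symm (QuotientGroup.mk (⟨T, hT⟩ : E Q)) with hg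
  have hactg : act h.normal e (g : G) = Psi Q (ofO T (E_le_O hT)) := by
    rw [act_coe, hg, e.apply_symm_apply, Psi_E hT]
  have hd' : (g : G) * d * (g : G)⁻¹ ∈ D := h.conjD g d hd
  have hN' : Psi Q (ofO T (E_le_O hT) * N * (ofO T (E_le_O hT))⁻¹) = act h.normal e ((g : G) * d * (g : G)⁻¹) := by
    rw [map_mul, map_mul, map_inv, map_mul, map_mul, map_inv, hactg, hN]
  have hz' : GP Q (ofO T (E_le_O hT) * N * (ofO T (E_le_O hT))⁻¹) x := by
    rw [← hTz]; exact hz.conj (E_le_O hT)
  obtain ⟨y, hy⟩ := LieClassical.OrthTrans.exists_hyp hG.nondeg hx.sing hx.ne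
  have hq : Good (qr Q (PP Q x y)) := good_res hG.nondeg h7 hy
  have hsq : IsSimpleGroup (P (qr Q (PP Q x y))) := LieClassical.OrthSimple.good_isSimpleGroup hq
  have hncq := not_comm hq
  obtain ⟨H, hHe, hmem, ψ, hval⟩ : ∃ H : Subgroup G,
      (∀ k ∈ H, ∃ M ∈ St Q x hy.left_ne, Psi Q M = act h.normal e k) ∧
      (∀ (k : G) (M : Gam Q), M ∈ St Q x hy.left_ne → Psi Q M = act h.normal e k → k ∈ H) ∧
      ∃ ψ : H →* MulAut (P (qr Q (PP Q x y))), ∀ (k : G) (hk : k ∈ H) (M : Gam Q) (hMx : M ∈ St Q x hy.left_ne),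
        Psi Q M = act h.normal e k → ψ ⟨k, hk⟩ = Psi (qr Q (PP Q x y)) (rsH hy ⟨M, hMx⟩) := by
    obtain ⟨ψ, hψ⟩ := exists_hom ((Psi Q).comp (St Q x hy.left_ne).subtype)
      ((Psi (qr Q (PP Q x y))).comp (rsH hy)) (ker_le hy hG hq) (act h.normal e)
    refine ⟨((Psi Q).comp (St Q x hy.left_ne).subtype).range.comap (act h.normal e), ?_, ?_, ψ, ?_⟩
    · rintro k ⟨M, hM⟩
      exact ⟨M, M.2, hM⟩
    · intro k M hMx hk
      exact ⟨⟨M, hMx⟩, hk⟩
    · intro k hk M hMx hkM
      exact hψ ⟨k, hk⟩ ⟨M, hMx⟩ hkM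
  have hHtop : H ≠ ⊤ := by
    intro htop
    obtain ⟨R, hR, hRx⟩ := hG.trans_sing hy.left hy.right hy.left_ne hy.right_ne
    have hk : ((e.symm (QuotientGroup.mk (⟨R, hR⟩ : E Q)) : S) : G) ∈ H := by rw [htop]; exact Subgroup.mem_top _
    obtain ⟨K, ⟨t, hKx⟩, hK⟩ := hHe _ hk
    have hK' : Psi Q K = Psi Q (ofO R (E_le_O hR)) := by
      rw [hK, act_coe, e.apply_symm_apply, Psi_E hR]
    obtain ⟨a, ha⟩ := exists_scal hG (M := K * (ofO R (E_le_O hR))⁻¹) (by rw [map_mul, map_inv, hK', mul_inv_cancel])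
    have h1 : K = scal Q a * ofO R (E_le_O hR) := by rw [← ha, inv_mul_cancel_right]
    have h2 : K.1 x = (a : F) • R x := by rw [h1]; rfl
    rw [hRx, hKx] at h2
    have h3 := congrArg (polar Q x) h2
    rw [polar_smul_right, polar_smul_right, hy.polar_left, hy.pair, smul_zero, smul_eq_mul, mul_one] at h3
    exact a.ne_zero h3.symm
  have hcH : c ∈ H := hmem c M hx.mem_St hM
  have hdH : (g : G) * d * (g : G)⁻¹ ∈ H := hmem _ _ hz'.mem_St hN'
  refine false_of_hom' h hHtop ψ (L := (MulAut.conj : P (qr Q (PP Q x y)) →* _).range) ?_ normal_inn (qs_inn hncq)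
    hc hd' hcH hdH ?_ ?_
  · rintro _ ⟨p, rfl⟩
    induction p using QuotientGroup.induction_on with
    | H p =>
      obtain ⟨A, hA, hAx, -, hAu⟩ := exists_lift hy p.2
      have hAst : ofO A (E_le_O hA) ∈ St Q x hy.left_ne := ⟨1, by rw [one_smul]; exact hAx⟩
      have hk : Psi Q (ofO A (E_le_O hA)) =
          act h.normal e ((e.symm (QuotientGroup.mk (⟨A, hA⟩ : E Q)) : S) : G) := by
        rw [act_coe, e.apply_symm_apply, Psi_E hA]
      refine ⟨⟨_, hmem _ _ hAst hk⟩, ?_⟩
      rw [hval _ _ _ hAst hk]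
      have h1 : rsH hy ⟨ofO A (E_le_O hA), hAst⟩ = ofO (p : _ ≃ₗ[F] _) (E_le_O p.2) := by
        apply Subtype.ext
        ext u
        rw [rsH_apply]
        have h2 : (ofO A (E_le_O hA)).1 (u : V) = ((p : _ ≃ₗ[F] _) u : PP Q x y) := hAu u
        show (pr hy ((ofO A (E_le_O hA)).1 (u : V)) : V) = _
        rw [h2, pr_coe]
        rfl
      rw [h1, Psi_E p.2]
  · rw [hval _ _ _ hx.mem_St hM]
    exact not_mem_centralizer_inn hncq (hx.psi_ne h3F hy hq)
  · rw [hval _ _ _ hz'.mem_St hN']
    exact not_mem_centralizer_inn hncq (hz'.psi_ne h3F hy hq)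

end Cfsg.Agent.H12.WfO
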