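import Cfsg.Agent.H12.WfO.Res
import Cfsg.Agent.H862.T5.ONonlin

/-!
# Good singular points of semisimilitudes of order three in characteristic three
-/

set_option autoImplicit false
set_option linter.unusedSectionVars false

namespace Cfsg.Agent.H12.WfO

open QuadraticMap hiding proj
open Module Cfsg.Agent.LieClassical.OrthCore Cfsg.Agent.LieClassical.OrthTrans
open Cfsg.Agent.ClassicalGeometry.OrthSemi Cfsg.Agent.ClassicalGeometry.OrthAut1
open Cfsg.Agent.H951 (Frm Nd Inv)
open Cfsg.Agent.H862.T5.OBase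
open Cfsg.Agent.H208.Parity (ofO)

variable {F V : Type*} [Field F] [AddCommGroup V] [Module F V] {Q : QuadraticForm F V}

/-- singular vectors in subspaces of dimension at least three -/
theorem exists_sing [Finite F] [FiniteDimensional F V] (h2 : (2 : F) ≠ 0) {W : Submodule F V} (hd : 3 ≤ finrank F W) :
    ∃ w ∈ W, w ≠ 0 ∧ Q w = 0 := by
  by_cases hW : Nd (BB Q) W
  · obtain ⟨x, hx, y, hy, h⟩ := exists_hyp_sub hW hd
    exact ⟨x, hx, h.left_ne, h.left⟩
  · unfold Nd at hW
    push Not at hW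
    obtain ⟨u, hu, hu0, hall⟩ := hW
    refine ⟨u, hu, hu0, ?_⟩
    have h3 := hall u hu
    rw [BB_apply, polar_self'] at h3
    exact (mul_eq_zero.1 h3).resolve_left h2

/-- the kernel of a map with `N ^ 3 = 0` -/
theorem finrank_le_three_mul [FiniteDimensional F V] {N : V →ₗ[F] V} (hN : ∀ v, N (N (N v)) = 0) :
    finrank F V ≤ 3 * finrank F (LinearMap.ker N) := by
  have h1 := LinearMap.finrank_range_add_finrank_ker N
  have h2 := LinearMap.finrank_range_add_finrank_ker (N.domRestrict (LinearMap.range N))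
  have h3 : finrank F (LinearMap.range (N.domRestrict (LinearMap.range N))) ≤ finrank F (LinearMap.ker N) := by
    apply Submodule.finrank_mono
    rintro _ ⟨⟨_, v, rfl⟩, rfl⟩
    exact hN v
  have h4 : finrank F (LinearMap.ker (N.domRestrict (LinearMap.range N))) ≤ finrank F (LinearMap.ker N) := by
    have h5 : finrank F ((LinearMap.ker (N.domRestrict (LinearMap.range N))).map (LinearMap.range N).subtype) =
        finrank F (LinearMap.ker (N.domRestrict (LinearMap.range N))) :=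
      LinearEquiv.finrank_eq (Submodule.equivMapOfInjective _ (Submodule.subtype_injective _) _).symm
    rw [← h5]
    apply Submodule.finrank_mono
    rintro _ ⟨v, hv, rfl⟩
    exact hv
  omega

/-- an isometry which fixes the vectors orthogonal to a singular vector is trivial -/
theorem eq_one_of_fix (hQ : Nondeg Q) {x : V} (hx : x ≠ 0) (hx0 : Q x = 0) {g : V ≃ₗ[F] V} (hg : g ∈ O Q)
    (hf : ∀ v, polar Q x v = 0 → g v = v) : g = 1 := by
  obtain ⟨y, hy⟩ := LieClassical.OrthTrans.exists_hyp hQ hx0 hx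
  have hdec : ∀ v, v = (v - polar Q x v • y) + polar Q x v • y := fun v => by module
  have hper : ∀ v, polar Q x (v - polar Q x v • y) = 0 := fun v => by
    rw [polar_sub_right, polar_smul_right, hy.pair]; simp
  have hgx : g x = x := hf x hy.polar_left
  have hgy : g y = y := by
    set w := g y - y with hw
    have h1 : ∀ v, polar Q x v = 0 → polar Q w v = 0 := by
      intro v hv
      rw [hw, polar_sub_left]
      conv_lhs => rw [← hf v hv]
      rw [polar_map hg, hf v hv, sub_self]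
    have h2 : w - polar Q y w • x = 0 := by
      apply hQ
      intro v
      have h3 : polar Q (w - polar Q y w • x) y = 0 := by
        rw [polar_sub_left, polar_smul_left, hy.pair, polar_comm Q w y]; simp
      have h4 : polar Q (w - polar Q y w • x) (v - polar Q x v • y) = 0 := by
        rw [polar_sub_left, polar_smul_left, h1 _ (hper v), hper v]; simp
      rw [hdec v, polar_add_right, polar_smul_right, h3, h4]
      simp
    have h3 : g y = y + polar Q y w • x := by
      rw [sub_eq_zero] at h2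
      rw [← h2, hw]
      abel
    have h4 : Q (g y) = Q y := hg y
    rw [h3, Q_smul_add, hy.right, hy.left, hy.pair'] at h4
    have h5 : polar Q y w = 0 := by linear_combination h4
    rw [h3, h5, zero_smul, add_zero]
  ext v
  rw [hdec v, map_add, map_smul, hgy, hf _ (hper v)]
  rfl

/-- **Linear case.** -/
theorem exists_point_lin [Finite F] [FiniteDimensional F V] (h3F : (3 : F) = 0) (hQ : Nondeg Q)
    (hd : 7 ≤ finrank F V) {g : V ≃ₗ[F] V} (hg : g ∈ O Q) (hg3 : g ^ 3 = 1) (hg1 : g ≠ 1) :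
    ∃ x, x ≠ 0 ∧ Q x = 0 ∧ g x = x ∧ ∃ v, polar Q x v = 0 ∧ ∀ t : F, g v ≠ v + t • x := by
  have h2 : (2 : F) ≠ 0 := by
    intro h
    apply one_ne_zero (α := F)
    linear_combination h3F - h
  by_contra hcon
  push Not at hcon
  set N : V →ₗ[F] V := g.toLinearMap - LinearMap.id with hN
  have hNa : ∀ v, N v = g v - v := fun v => rfl
  have hN3 : ∀ v, N (N (N v)) = 0 := by
    intro v
    have h4 : g (g (g v)) = v := by
      have := LinearEquiv.congr_fun hg3 v
      exact this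
    simp only [hNa, map_sub, h4]
    have : v - g (g v) - (g (g v) - g v) - (g (g v) - g v - (g v - v)) = (-(3 : F)) • g (g v) + (3 : F) • g v := by
      module
    rw [this, h3F]
    simp
  have hK : ∀ v, v ∈ LinearMap.ker N ↔ g v = v := fun v => by
    rw [LinearMap.mem_ker, hNa, sub_eq_zero]
  have h4 := finrank_le_three_mul hN3
  obtain ⟨x, hxK, hx, hx0⟩ := exists_sing (Q := Q) h2 (W := LinearMap.ker N) (by omega)
  obtain ⟨y, hy⟩ := LieClassical.OrthTrans.exists_hyp hQ hx0 hx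
  have hr : LinearMap.range N ≤ Submodule.span F {x, N y} := by
    rintro _ ⟨v, rfl⟩
    have hper : polar Q x (v - polar Q x v • y) = 0 := by
      rw [polar_sub_right, polar_smul_right, hy.pair]; simp
    obtain ⟨t, ht⟩ := hcon x hx hx0 ((hK x).1 hxK) _ hper
    have e : N v = t • x + polar Q x v • N y := by
      have h5 : N (v - polar Q x v • y) = t • x := by rw [hNa, ht]; abel
      rw [map_sub, map_smul, sub_eq_iff_eq_add] at h5
      exact h5
    rw [e]
    refine Submodule.add_mem _ (Submodule.smul_mem _ _ (Submodule.subset_span (by simp)))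
      (Submodule.smul_mem _ _ (Submodule.subset_span (by simp)))
  have hr2 : finrank F (LinearMap.range N) ≤ 2 := by
    classical
    refine (Submodule.finrank_mono hr).trans ?_
    refine (finrank_span_le_card _).trans ?_
    refine le_trans (le_of_eq (Set.toFinset_card _)) ?_
    rw [← Nat.card_eq_fintype_card, Nat.card_coe_set_eq]
    exact (Set.ncard_insert_le _ _).trans (by rw [Set.ncard_singleton])
  obtain ⟨R', hR'⟩ := Submodule.exists_isCompl (LinearMap.range N)
  have h5 := Submodule.finrank_add_eq_of_isCompl hR'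
  have h6 := LinearMap.finrank_range_add_finrank_ker N
  have h7 := Submodule.finrank_sup_add_finrank_inf_eq (LinearMap.ker N) R'
  have h8 : finrank F ↥(LinearMap.ker N ⊔ R') ≤ finrank F V := Submodule.finrank_le _
  obtain ⟨z, ⟨hzK, hzR⟩, hz, hz0⟩ := exists_sing (Q := Q) h2 (W := LinearMap.ker N ⊓ R') (by omega)
  apply hg1
  refine eq_one_of_fix hQ hz hz0 hg fun v hv => ?_
  obtain ⟨t, ht⟩ := hcon z hz hz0 ((hK z).1 hzK) v hv
  have h9 : t • z ∈ LinearMap.range N ⊓ R' := by
    refine ⟨⟨v, ?_⟩, R'.smul_mem _ hzR⟩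
    rw [hNa, ht]; abel
  rw [hR'.inf_eq_bot, Submodule.mem_bot] at h9
  rw [ht, h9, add_zero]

/-- **Nonlinear case.** -/
theorem exists_point_nl [Finite F] [FiniteDimensional F V] [Nontrivial V] (hQ : Nondeg Q) (hd : 3 ≤ finrank F V)
    {σ : F ≃+* F} {c : F} {M : Equiv.Perm V} (hM : IsSS Q σ c M) (hσ : orderOf σ = 3) (hM3 : M ^ 3 = 1) :
    ∃ x, x ≠ 0 ∧ Q x = 0 ∧ M x = x := by
  obtain ⟨j, e, he, hj, hjM⟩ := H862.T5.ONonlin.exists_frame_nl hQ hM hσ (by norm_num) hM3 (κ' := Fin 1 ⊕ Fin 1)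
    (k := 1) (by simp) (by omega) (P₀ := LieClassical.QuadForms.plusForm 1 (H966.Frob.fix σ))
    (LieClassical.QuadForms.polar_plusForm_nondeg 1)
    (P := LieClassical.QuadForms.plusForm 1 F) (fun x => by
      rw [LieClassical.QuadForms.coe_plusForm, LieClassical.QuadForms.coe_plusForm, H208.Frame.coe_plus])
  set x₀ : Fin 1 ⊕ Fin 1 → F := Sum.elim (fun _ => 1) (fun _ => 0) with hx₀
  set y₀ : Fin 1 ⊕ Fin 1 → F := Sum.elim (fun _ => 0) (fun _ => 1) with hy₀
  have hP : ∀ v : Fin 1 ⊕ Fin 1 → F, LieClassical.QuadForms.plusForm 1 F v = v (.inl 0) * v (.inr 0) := by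
    intro v
    rw [LieClassical.QuadForms.coe_plusForm]
    unfold Cfsg.quadFormPlus
    simp
  refine ⟨j x₀, ?_, ?_, ?_⟩
  · intro h0
    have h1 : Q (j (x₀ + y₀)) = e := by
      rw [hj, hP, hx₀, hy₀]
      simp
    have h2 : Q (j y₀) = 0 := by
      rw [hj, hP, hy₀]
      simp
    rw [map_add, h0, zero_add, h2] at h1
    exact he h1.symm
  · rw [hj, hP, hx₀]
    simp
  · rw [hjM]
    congr 1
    funext i
    rw [H966.Frob.frob_apply]
    rcases i with i | i <;> simp [hx₀]

/-- Good points. -/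
structure GP (Q : QuadraticForm F V) (M : Gam Q) (x : V) : Prop where
  ne : x ≠ 0
  sing : Q x = 0
  fix : M.1 x = x
  cube : M ^ 3 = 1
  act : (∃ (σ : F ≃+* F) (c : F), σ ≠ 1 ∧ IsSS Q σ c M.1) ∨
    ((∃ c : F, IsSS Q (RingEquiv.refl F) c M.1) ∧ ∃ v, polar Q x v = 0 ∧ ∀ t : F, M.1 v ≠ v + t • x)

theorem exists_gp [Finite F] [FiniteDimensional F V] (h3F : (3 : F) = 0) (hG : Good Q) (hd : 7 ≤ finrank F V)
    {M : Gam Q} (h3 : Psi Q M ^ 3 = 1) (h1 : Psi Q M ≠ 1) : ∃ M' : Gam Q, Psi Q M' = Psi Q M ∧ ∃ x, GP Q M' x := by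
  have := H208.ConjSS.nontrivial_of_good hG
  obtain ⟨σ, c, hM⟩ := id M.2
  by_cases hσ : σ = 1
  · subst hσ
    obtain ⟨g, hg, hg3, hgM⟩ := exists_isom hG (p := 3) (by decide) hM h3
    have hg1 : g ≠ 1 := by
      rintro rfl
      apply h1
      rw [hgM]
      have : ofO (1 : V ≃ₗ[F] V) hg = 1 := rfl
      rw [this, map_one]
    obtain ⟨x, hx, hx0, hgx, v, hv, hvt⟩ := exists_point_lin h3F hG.nondeg hd hg hg3 hg1
    refine ⟨ofO g hg, hgM.symm, x, hx, hx0, hgx, ?_, Or.inr ⟨?_, v, hv, hvt⟩⟩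
    · apply Subtype.ext
      ext v
      exact LinearEquiv.congr_fun hg3 v
    · exact ⟨1, one_ne_zero, fun u v => map_add g u v, fun a v => map_smul g a v, fun v => by
        rw [one_mul]; exact hg v⟩
  · obtain ⟨hoσ, a, ha⟩ := H208.ConjSS.exists_normal hG hM hσ Nat.prime_three h3
    obtain ⟨d, hd'⟩ := H208.ConjSS.isSS_scal_mul hM a
    obtain ⟨x, hx, hx0, hMx⟩ := exists_point_nl hG.nondeg (by omega) hd' hoσ ha
    refine ⟨scal Q a * M, ?_, x, hx, hx0, hMx, Subtype.ext ha, Or.inl ⟨σ, d, hσ, hd'⟩⟩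
    rw [map_mul, H208.ConjSS.Psi_scal hG, one_mul]

theorem GP.conj {M : Gam Q} {x : V} (h : GP Q M x) {T : V ≃ₗ[F] V} (hT : T ∈ O Q) :
    GP Q (ofO T hT * M * (ofO T hT)⁻¹) (T x) := by
  have happ : ∀ v, (ofO T hT * M * (ofO T hT)⁻¹).1 (T v) = T (M.1 v) := by
    intro v
    show T (M.1 ((ofO T hT).1⁻¹ (T v))) = _
    have : (ofO T hT).1⁻¹ (T v) = v := (ofO T hT).1.symm_apply_apply v
    rw [this]
  have hTs : IsSS Q (RingEquiv.refl F) 1 (ofO T hT).1 :=
    ⟨one_ne_zero, fun u v => map_add T u v, fun a v => map_smul T a v, fun v => by rw [one_mul]; exact hT v⟩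
  refine ⟨fun h0 => h.ne (T.injective (h0.trans (map_zero T).symm)), by rw [hT]; exact h.sing, ?_, ?_, ?_⟩
  · rw [happ, h.fix]
  · rw [conj_pow, h.cube, mul_one, mul_inv_cancel]
  · rcases h.act with ⟨σ, c, hσ, hM⟩ | ⟨⟨c, hM⟩, v, hv, hvt⟩
    · left
      exact ⟨_, _, hσ, (hTs.mul hM).mul hTs.inv⟩
    · right
      refine ⟨⟨_, (hTs.mul hM).mul hTs.inv⟩, T v, ?_, fun t ht => hvt t ?_⟩
      · rw [polar_map hT, hv]
      · rw [happ, ← map_smul, ← map_add] at ht
        exact T.injective ht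

theorem GP.mem_St {M : Gam Q} {x : V} (h : GP Q M x) : M ∈ St Q x h.ne := ⟨1, by rw [one_smul]; exact h.fix⟩

theorem GP.psi_ne (h3F : (3 : F) = 0) {M : Gam Q} {x y : V} (h : GP Q M x) (hy : Hyp Q x y)
    (hq : Good (qr Q (PP Q x y))) : Psi (qr Q (PP Q x y)) (rsH hy ⟨M, h.mem_St⟩) ≠ 1 := by
  intro h1
  have := H208.ConjSS.nontrivial_of_good hq
  obtain ⟨a, ha⟩ := exists_scal hq h1
  have hsc : IsSS (qr Q (PP Q x y)) (RingEquiv.refl F) ((a : F) * a) (scal (qr Q (PP Q x y)) a).1 :=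
    ⟨mul_ne_zero a.ne_zero a.ne_zero, fun u v => smul_add (a : F) u v, fun t v => smul_comm (a : F) t v, fun v => by
      rw [scal_apply, QuadraticMap.map_smul]; rfl⟩
  rcases h.act with ⟨σ, c, hσ, hM⟩ | ⟨⟨c, hM⟩, v, hv, hvt⟩
  · have h2 := isSS_rsP hy ⟨M, h.mem_St⟩ hM
    have h3 : rsP hy ⟨M, h.mem_St⟩ = (scal (qr Q (PP Q x y)) a).1 := congrArg Subtype.val ha
    rw [h3] at h2
    exact hσ (H208.ConjSS.sigma_unique h2 hsc)
  · have hcube : (⟨M, h.mem_St⟩ : St Q x h.ne) ^ 3 = 1 := Subtype.ext h.cube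
    have h2 : (rsH hy ⟨M, h.mem_St⟩) ^ 3 = 1 := by rw [← map_pow, hcube, map_one]
    have h3 : (a : F) ^ 3 = 1 := by
      obtain ⟨u, hu⟩ := exists_ne (0 : PP Q x y)
      have h4 : (scal (qr Q (PP Q x y)) a ^ 3).1 u = u := by rw [← ha, h2]; rfl
      have h5 : (scal (qr Q (PP Q x y)) a ^ 3).1 u = (a : F) • (a : F) • (a : F) • u := rfl
      rw [h5, smul_smul, smul_smul] at h4
      have h6 : ((a : F) ^ 3 - 1) • u = 0 := by
        have : ((a : F) ^ 3 - 1) • u = ((a : F) * ((a : F) * a)) • u - u := by module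
        rw [this, ← mul_assoc, h4, sub_self]
      exact sub_eq_zero.1 ((smul_eq_zero.1 h6).resolve_right hu)
    have h4 : (a : F) = 1 := by
      have h5 : ((a : F) - 1) ^ 3 = 0 := by
        have : ((a : F) - 1) ^ 3 = (a : F) ^ 3 - 1 + 3 * (a - a ^ 2) := by ring
        rw [this, h3, h3F]; ring
      exact sub_eq_zero.1 (pow_eq_zero_iff (by norm_num) |>.1 h5)
    have h5 : ∀ u : PP Q x y, pr hy (M.1 u) = u := by
      intro u
      have h6 : (rsH hy ⟨M, h.mem_St⟩).1 u = (a : F) • u := by rw [ha]; rfl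
      rw [h4, one_smul] at h6
      exact h6
    have h6 : polar Q x (M.1 (pr hy v : V)) = 0 := St_perp h.mem_St (mem_PP.1 (pr hy v).2).1
    have h7 := eq_of_perp hy h6
    rw [h5] at h7
    apply hvt (polar Q y (M.1 (pr hy v : V)))
    have h8 := eq_of_perp hy hv
    generalize hs : polar Q y (M.1 (pr hy v : V)) = s at h7 ⊢
    generalize hr : polar Q y v = r at h8
    generalize hw : (pr hy v : V) = w at h7 h8
    rw [h8, hM.add, hM.smul, h.fix, h7]
    simp only [RingEquiv.refl_apply]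
    abel

end Cfsg.Agent.H12.WfO
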