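import Cfsg.Agent.H862.T5.OBase

/-!
# The residue of a singular point

`(x, y)` a hyperbolic pair, `U = ⟨x, y⟩^⊥`, `q = Q|U`: the stabiliser of the point `⟨x⟩` in the group of the
semisimilitudes acts on `x^⊥ / ⟨x⟩ = U`.
-/

set_option autoImplicit false
set_option linter.unusedSectionVars false

namespace Cfsg.Agent.H12.WfO

open QuadraticMap hiding proj
open Module Cfsg.Agent.LieClassical.OrthCore Cfsg.Agent.LieClassical.OrthTrans
open Cfsg.Agent.ClassicalGeometry.OrthSemi Cfsg.Agent.ClassicalGeometry.OrthAut1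
open Cfsg.Agent.H951 (Frm Nd Inv)
open Cfsg.Agent.H862.T5.OBase
open Cfsg.Agent.H208.Parity (ofO)

variable {F V : Type*} [Field F] [AddCommGroup V] [Module F V] {Q : QuadraticForm F V}

/-- the vectors orthogonal to `x` and `y` -/
def PP (Q : QuadraticForm F V) (x y : V) : Submodule F V :=
  LinearMap.ker (polarBilin Q x) ⊓ LinearMap.ker (polarBilin Q y)

theorem mem_PP {x y v : V} : v ∈ PP Q x y ↔ polar Q x v = 0 ∧ polar Q y v = 0 := by
  simp [PP]

theorem finrank_PP [FiniteDimensional F V] (x y : V) : finrank F V ≤ finrank F (PP Q x y) + 2 := by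
  have h1 := LinearMap.finrank_range_add_finrank_ker ((polarBilin Q x).prod (polarBilin Q y))
  rw [LinearMap.ker_prod] at h1
  have h2 : finrank F (LinearMap.range ((polarBilin Q x).prod (polarBilin Q y))) ≤ 2 := by
    refine (Submodule.finrank_le _).trans ?_
    rw [Module.finrank_prod, Module.finrank_self]
  have h3 : finrank F (PP Q x y) = finrank F ↥(LinearMap.ker (polarBilin Q x) ⊓ LinearMap.ker (polarBilin Q y)) := rfl
  omega

theorem nd_PP (hQ : Nondeg Q) {x y : V} (h : Hyp Q x y) : Nd (BB Q) (PP Q x y) := by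
  intro u hu h0
  rw [mem_PP] at hu
  obtain ⟨v, hv⟩ := hQ.exists_polar_ne h0
  refine ⟨proj Q x y v, mem_PP.2 ⟨polar_proj_left h v, polar_proj_right h v⟩, ?_⟩
  rw [BB_apply, polar_proj_of_perp hu.1 hu.2]
  exact hv

/-- Nondegenerate forms of dimension at least five over finite fields are good. -/
theorem good_of_nondeg [Finite F] [FiniteDimensional F V] (hQ : Nondeg Q) (hd : 5 ≤ finrank F V) : Good Q := by
  refine ⟨hQ, hd, ?_, fun x y h => ?_⟩
  · obtain ⟨x, y, h⟩ := GenOrth.exists_hyp_of_nondeg hQ (by omega)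
    exact ⟨x, h.left_ne, h.left⟩
  · obtain ⟨w, hw, z, -, hwz⟩ := exists_hyp_sub (nd_PP hQ h) (by have := finrank_PP (Q := Q) x y; omega)
    rw [mem_PP] at hw
    exact ⟨w, hwz.left_ne, hwz.left, hw.1, hw.2⟩

theorem good_res [Finite F] [FiniteDimensional F V] (hQ : Nondeg Q) (hd : 7 ≤ finrank F V) {x y : V} (h : Hyp Q x y) :
    Good (qr Q (PP Q x y)) :=
  good_of_nondeg (nondeg_qr (nd_PP hQ h)) (by have := finrank_PP (Q := Q) x y; omega)

/-! ### the projection -/

/-- the projection to `⟨x, y⟩^⊥` -/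
def pr {x y : V} (h : Hyp Q x y) : V →ₗ[F] PP Q x y where
  toFun v := ⟨proj Q x y v, mem_PP.2 ⟨polar_proj_left h v, polar_proj_right h v⟩⟩
  map_add' u v := by
    apply Subtype.ext
    show proj Q x y (u + v) = proj Q x y u + proj Q x y v
    simp only [proj, polar_add_right]
    module
  map_smul' a v := by
    apply Subtype.ext
    show proj Q x y (a • v) = a • proj Q x y v
    simp only [proj, polar_smul_right, smul_eq_mul]
    module

theorem coe_pr {x y : V} (h : Hyp Q x y) (v : V) : (pr h v : V) = proj Q x y v := rfl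

theorem pr_self {x y : V} (h : Hyp Q x y) : pr h x = 0 := by
  apply Subtype.ext
  rw [coe_pr, proj, h.polar_left, h.pair']
  simp

theorem pr_coe {x y : V} (h : Hyp Q x y) (u : PP Q x y) : pr h (u : V) = u := by
  apply Subtype.ext
  have hu := mem_PP.1 u.2
  rw [coe_pr, proj, hu.1, hu.2]
  simp

theorem eq_of_perp {x y : V} (h : Hyp Q x y) {v : V} (hv : polar Q x v = 0) : v = pr h v + polar Q y v • x := by
  rw [coe_pr, proj, hv]
  simp

theorem Q_pr {x y : V} (h : Hyp Q x y) {v : V} (hv : polar Q x v = 0) : Q (pr h v) = Q v := by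
  conv_rhs => rw [eq_of_perp h hv]
  rw [Q_smul_add, h.left, polar_comm Q (pr h v : V) x, (mem_PP.1 (pr h v).2).1]
  ring

/-! ### the stabiliser of a point -/

/-- the stabiliser of the point `⟨x⟩` -/
def St (Q : QuadraticForm F V) (x : V) (hx : x ≠ 0) : Subgroup (Gam Q) where
  carrier := {M | ∃ t : F, M.1 x = t • x}
  mul_mem' := by
    rintro M N ⟨s, hs⟩ ⟨t, ht⟩
    obtain ⟨σ, c, hM⟩ := M.2
    refine ⟨σ t * s, ?_⟩
    show M.1 (N.1 x) = _
    rw [ht, hM.smul, hs, smul_smul]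
  one_mem' := ⟨1, by rw [one_smul]; rfl⟩
  inv_mem' := by
    rintro M ⟨t, ht⟩
    obtain ⟨σ, c, hM⟩ := M.2
    have ht0 : t ≠ 0 := by
      rintro rfl
      rw [zero_smul] at ht
      exact hx (M.1.injective (ht.trans hM.map_zero.symm))
    have hσ : σ.symm t ≠ 0 := by simpa using ht0
    refine ⟨(σ.symm t)⁻¹, ?_⟩
    show M.1⁻¹ x = _
    have h1 : M.1⁻¹ (t • x) = x := by rw [← ht, inv_apply]
    rw [hM.inv.smul] at h1
    conv_rhs => rw [← h1]
    rw [smul_smul, inv_mul_cancel₀ hσ, one_smul]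

theorem mem_St {x : V} {hx : x ≠ 0} {M : Gam Q} : M ∈ St Q x hx ↔ ∃ t : F, M.1 x = t • x := Iff.rfl

theorem St_ne {x : V} {hx : x ≠ 0} {M : Gam Q} {t : F} (h : M.1 x = t • x) : t ≠ 0 := by
  obtain ⟨σ, c, hM⟩ := M.2
  rintro rfl
  rw [zero_smul] at h
  exact hx (M.1.injective (h.trans hM.map_zero.symm))

theorem St_perp {x : V} {hx : x ≠ 0} {M : Gam Q} (hM : M ∈ St Q x hx) {v : V} (hv : polar Q x v = 0) :
    polar Q x (M.1 v) = 0 := by
  obtain ⟨t, ht⟩ := hM
  obtain ⟨σ, c, hM⟩ := id M.2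
  have h1 := hM.polar x v
  rw [hv, map_zero, mul_zero, ht, polar_smul_left, smul_eq_mul] at h1
  exact (mul_eq_zero.1 h1).resolve_left (St_ne (hx := hx) ht)

/-- the induced map -/
def rs {x y : V} (h : Hyp Q x y) (M : Gam Q) : PP Q x y → PP Q x y := fun u => pr h (M.1 u)

theorem rs_mul {x y : V} (h : Hyp Q x y) {M N : Gam Q} (hM : M ∈ St Q x h.left_ne) (hN : N ∈ St Q x h.left_ne)
    (u : PP Q x y) : rs h (M * N) u = rs h M (rs h N u) := by
  have hp : polar Q x (N.1 u) = 0 := St_perp hN (mem_PP.1 u.2).1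
  have h1 : (M * N).1 u = M.1 (N.1 u) := rfl
  rw [rs, rs, rs, h1]
  obtain ⟨t, ht⟩ := hM
  obtain ⟨σ, c, hM'⟩ := id M.2
  conv_lhs => rw [eq_of_perp h hp]
  rw [hM'.add, hM'.smul, ht, map_add, map_smul, map_smul, pr_self, smul_zero, smul_zero, add_zero]

theorem rs_one {x y : V} (h : Hyp Q x y) (u : PP Q x y) : rs h 1 u = u := pr_coe h u

/-- the induced permutation -/
def rsP {x y : V} (h : Hyp Q x y) (M : St Q x h.left_ne) : Equiv.Perm (PP Q x y) where
  toFun := rs h M.1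
  invFun := rs h M⁻¹.1
  left_inv u := by
    rw [← rs_mul h M⁻¹.2 M.2, ← Subgroup.coe_mul, inv_mul_cancel]
    exact rs_one h u
  right_inv u := by
    rw [← rs_mul h M.2 M⁻¹.2, ← Subgroup.coe_mul, mul_inv_cancel]
    exact rs_one h u

theorem rsP_apply {x y : V} (h : Hyp Q x y) (M : St Q x h.left_ne) (u : PP Q x y) : rsP h M u = pr h (M.1.1 u) := rfl

theorem isSS_rsP {x y : V} (h : Hyp Q x y) (M : St Q x h.left_ne) {σ : F ≃+* F} {c : F} (hM : IsSS Q σ c M.1.1) :
    IsSS (qr Q (PP Q x y)) σ c (rsP h M) := by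
  refine ⟨hM.ne, fun u v => ?_, fun a v => ?_, fun v => ?_⟩
  · rw [rsP_apply, rsP_apply, rsP_apply, ← map_add, ← hM.add]
    rfl
  · rw [rsP_apply, rsP_apply, ← map_smul, ← hM.smul]
    rfl
  · rw [qr_apply, qr_apply, rsP_apply, Q_pr h (St_perp M.2 (mem_PP.1 v.2).1), hM.form]

/-- **The action on the residue.** -/
def rsH {x y : V} (h : Hyp Q x y) : St Q x h.left_ne →* Gam (qr Q (PP Q x y)) where
  toFun M := ⟨rsP h M, by
    obtain ⟨σ, c, hM⟩ := id M.1.2
    exact ⟨σ, c, isSS_rsP h M hM⟩⟩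
  map_one' := by
    apply Subtype.ext
    ext u
    exact congrArg Subtype.val (rs_one h u)
  map_mul' M N := by
    apply Subtype.ext
    ext u
    exact congrArg Subtype.val (rs_mul h M.2 N.2 u)

theorem rsH_apply {x y : V} (h : Hyp Q x y) (M : St Q x h.left_ne) (u : PP Q x y) :
    (rsH h M).1 u = pr h (M.1.1 u) := rfl

/-- scalars -/
theorem rsH_scal {x y : V} (h : Hyp Q x y) {a : Fˣ} {M : St Q x h.left_ne} (hM : M.1 = scal Q a) :
    rsH h M = scal (qr Q (PP Q x y)) a := by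
  apply Subtype.ext
  ext u
  rw [rsH_apply, hM]
  show (pr h ((a : F) • (u : V)) : V) = (a : F) • (u : V)
  rw [map_smul, pr_coe]
  rfl

theorem ker_le {x y : V} (h : Hyp Q x y) (hG : Good Q) (hq : Good (qr Q (PP Q x y))) :
    ((Psi Q).comp (St Q x h.left_ne).subtype).ker ≤ ((Psi (qr Q (PP Q x y))).comp (rsH h)).ker := by
  intro M hM
  obtain ⟨a, ha⟩ := exists_scal hG (M := M.1) hM
  rw [MonoidHom.mem_ker, MonoidHom.comp_apply, rsH_scal h ha]
  exact H208.ConjSS.Psi_scal hq a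

/-- elements of `E q` lift -/
theorem exists_lift {x y : V} (h : Hyp Q x y) {g : PP Q x y ≃ₗ[F] PP Q x y} (hg : g ∈ E (qr Q (PP Q x y))) :
    ∃ T ∈ E Q, T x = x ∧ T y = y ∧ ∀ u : PP Q x y, T u = g u := by
  induction hg using Subgroup.closure_induction with
  | mem g hg =>
    obtain ⟨u, w, hu, hw, rfl⟩ := hg
    have hu' : Q (u : V) = 0 := hu
    have hw' : polar Q (u : V) (w : V) = 0 := by rw [← polar_qr]; exact hw
    have hup := mem_PP.1 u.2
    have hwp := mem_PP.1 w.2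
    refine ⟨siegel Q u w hu' hw', siegel_mem_E _ _, ?_, ?_, fun v => ?_⟩
    · rw [siegel_apply, polar_comm Q (u : V) x, polar_comm Q (w : V) x, hup.1, hwp.1]
      simp
    · rw [siegel_apply, polar_comm Q (u : V) y, polar_comm Q (w : V) y, hup.2, hwp.2]
      simp
    · rw [siegel_apply, siegel_apply, polar_qr, polar_qr, qr_apply]
      rfl
  | one => exact ⟨1, (E Q).one_mem, rfl, rfl, fun _ => rfl⟩
  | mul a b _ _ ha hb =>
    obtain ⟨A, hA, hAx, hAy, hAu⟩ := ha
    obtain ⟨B, hB, hBx, hBy, hBu⟩ := hb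
    refine ⟨A * B, (E Q).mul_mem hA hB, ?_, ?_, fun u => ?_⟩
    · rw [LinearEquiv.mul_apply, hBx, hAx]
    · rw [LinearEquiv.mul_apply, hBy, hAy]
    · rw [LinearEquiv.mul_apply, hBu, hAu]
      rfl
  | inv a _ ha =>
    obtain ⟨A, hA, hAx, hAy, hAu⟩ := ha
    refine ⟨A⁻¹, (E Q).inv_mem hA, ?_, ?_, fun u => ?_⟩
    · apply A.injective
      rw [hAx]
      exact A.apply_symm_apply x
    · apply A.injective
      rw [hAy]
      exact A.apply_symm_apply y
    · apply A.injective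
      rw [hAu]
      have h1 : A (A⁻¹ (u : V)) = u := A.apply_symm_apply _
      have h2 : a (a⁻¹ u) = u := a.apply_symm_apply _
      rw [h1, h2]

end Cfsg.Agent.H12.WfO
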