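import Cfsg.Agent.H12.WfO.Main
import Cfsg.Agent.H862.T5.OFrame

/-!
# S3826: the rows of the orthogonal groups in characteristic three

* `wf_odd`, `wf_minus` : `PΩ_{2m+1}(3^a)`, `m ≥ 3`, `PΩ⁻_{2m}(3^a)`, `m ≥ 4`;
* `wf_plus` : `PΩ⁺_{2m}(3^a)`, `m ≥ 4`, under the hypothesis `TriRow` (no minimal configuration contains a triality).
-/

set_option autoImplicit false
set_option linter.unusedSectionVars false

namespace Cfsg.Agent.H12.WfO

universe u v

open QuadraticMap hiding proj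
open Module Cfsg.Agent.LieClassical.OrthCore Cfsg.Agent.LieClassical.OrthTrans
open Cfsg.Agent.ClassicalGeometry.OrthSemi Cfsg.Agent.ClassicalGeometry.OrthAut1
open Cfsg.Agent.LieClassical.QuadForms
open Cfsg.Agent.H533.Wf

/-- Minimal configurations with a triality. -/
def TriRow : Prop :=
  ∀ (F : Type) [Field F] [Finite F] [CharP F 3] (G : Type u) [Group G] [Finite G] (S : Subgroup G) (C D : Set G)
    (h : Cfg 3 S C D) (e : S ≃* P (plusForm 4 F)), ∀ c ∈ C, act h.normal e c ∉ (Psi (plusForm 4 F)).range → False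

theorem act_trans {G : Type*} [Group G] {S : Subgroup G} {K K' : Type*} [Group K] [Group K'] (hS : S.Normal)
    (e : S ≃* K) (f : K ≃* K') (g : G) : act hS (e.trans f) g = MulAut.congr f (act hS e g) := by
  ext x
  rfl

theorem mem_range_of_ind {ι : Type} [Fintype ι] [DecidableEq ι] {F : Type*} [Field F] {Q : QuadraticForm F (ι → F)}
    (hG : Good Q) {β : MulAut (Cfsg.POmega F ⇑Q)} (h : ∃ y, H903.SylSemi.SemiO F ⇑Q y ∧
      H903.SylSemi.Ind (H152.MeetOmega.proj ⇑Q) (H152.MeetOmega.rho ⇑Q) y β) :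
    MulAut.congr (AutOrth.Main.pe hG) β ∈ (Psi Q).range := by
  obtain ⟨y, hy, hyi⟩ := h
  exact ⟨⟨y, H152.MeetOmega.mem_gam_iff.2 hy⟩, ((H152.MeetOmega.ind_iff hG ⟨y, _⟩ β).1 hyi).symm⟩

/-- the row for a good form -/
theorem wf_good {ι F : Type} [Fintype ι] [DecidableEq ι] [Field F] [Finite F]
    {Q : QuadraticForm F (ι → F)} (hG : Good Q) (h3F : (3 : F) = 0) (h7 : 7 ≤ Fintype.card ι)
    (hind : ∀ c : MulAut (Cfsg.POmega F ⇑Q), ∃ y, H903.SylSemi.SemiO F ⇑Q y ∧
      H903.SylSemi.Ind (H152.MeetOmega.proj ⇑Q) (H152.MeetOmega.rho ⇑Q) y c) : WfRow.{u, 0} 3 (Cfsg.POmega F ⇑Q) := by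
  rintro G _ _ S C D h ⟨e⟩
  obtain ⟨c, hc⟩ := h.neC
  obtain ⟨d, hd⟩ := h.neD
  refine false_of_gam h3F hG (by rwa [Module.finrank_fintype_fun_eq_card]) h (e.trans (AutOrth.Main.pe hG)) hc hd ?_ ?_
  · rw [act_trans]; exact mem_range_of_ind hG (hind _)
  · rw [act_trans]; exact mem_range_of_ind hG (hind _)

theorem wf_iso {K : Type v} [Group K] {K' : Type} [Group K'] (e : K ≃* K') (h : WfRow.{u, 0} 3 K') :
    WfRow.{u, v} 3 K := by
  rintro G _ _ S C D hc ⟨f⟩
  exact h G S C D hc ⟨f.trans e⟩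

/-- **`PΩ_{2m+1}(3^a)`.** -/
theorem wf_odd {K : Type v} [Group K] (h : Cfsg.IsPOmegaOddChar 3 K) : WfRow.{u, v} 3 K := by
  obtain ⟨F, _, _, hF, m, hm, hq, ⟨e⟩⟩ := h
  have h3F : (3 : F) = 0 := CharP.cast_eq_zero F 3
  have h2 : (2 : F) ≠ 0 := by
    intro h
    apply one_ne_zero (α := F)
    linear_combination h3F - h
  have hG := AutOrth.Main.good_odd (F := F) (m := m) (by omega) h2
  refine wf_iso e ?_
  have hind := H152.MeetOmega.gamma_odd (F := F) hm h2
  rw [← coe_oddForm] at hind ⊢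
  exact wf_good hG h3F (by simp only [Fintype.card_sum, Fintype.card_fin, Fintype.card_unit]; omega) hind

/-- **`PΩ⁻_{2m}(3^a)`.** -/
theorem wf_minus {K : Type v} [Group K] (h : Cfsg.IsPOmegaMinusChar 3 K) : WfRow.{u, v} 3 K := by
  obtain ⟨F, _, _, hF, m, a, b, hm, hab, ⟨e⟩⟩ := h
  have h3F : (3 : F) = 0 := CharP.cast_eq_zero F 3
  have hG := AutOrth.Main.good_minus (F := F) (m := m - 1) (by omega) hab
  refine wf_iso e ?_
  have hind := H152.MeetOmega.gamma_minus (F := F) (m := m - 1) (by omega) hab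
  rw [← coe_minusForm] at hind ⊢
  exact wf_good hG h3F (by simp only [Fintype.card_sum, Fintype.card_fin]; omega) hind

/-- **`PΩ⁺_{2m}(3^a)`, `m ≥ 5`.** -/
theorem wf_plus_five {F : Type} [Field F] [Finite F] (h3F : (3 : F) = 0) {m : ℕ} (hm : 5 ≤ m) :
    WfRow.{u, 0} 3 (Cfsg.POmega F (Cfsg.quadFormPlus m F)) := by
  have hG := AutOrth.Main.good_plus (F := F) (m := m) (by omega)
  have hind : ∀ β : MulAut (Cfsg.POmega F (Cfsg.quadFormPlus m F)), ∃ y, H903.SylSemi.SemiO F (Cfsg.quadFormPlus m F) y ∧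
      H903.SylSemi.Ind (H152.MeetOmega.proj (Cfsg.quadFormPlus m F)) (H152.MeetOmega.rho (Cfsg.quadFormPlus m F)) y β := by
    intro β
    have h := AutOrth.Main.all_plus hm β
    revert β
    rw [← coe_plusForm]
    intro β h
    exact H152.MeetOmega.exists_of_ind hG h
  rw [← coe_plusForm] at hind ⊢
  exact wf_good hG h3F (by simp only [Fintype.card_sum, Fintype.card_fin]; omega) hind

/-- **`PΩ⁺_8(3^a)`**: pairs of semisimilitudes. -/
theorem wf_plus_four {F : Type} [Field F] [Finite F] (h3F : (3 : F) = 0) {G : Type u} [Group G] [Finite G]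
    {S : Subgroup G} {C D : Set G} (h : Cfg 3 S C D) (e : S ≃* P (plusForm 4 F)) {c d : G} (hc : c ∈ C) (hd : d ∈ D)
    (hcG : act h.normal e c ∈ (Psi (plusForm 4 F)).range) (hdG : act h.normal e d ∈ (Psi (plusForm 4 F)).range) :
    False :=
  false_of_gam h3F (AutOrth.Main.good_plus (by norm_num))
    (by rw [Module.finrank_fintype_fun_eq_card]; simp) h e hc hd hcG hdG

/-- **`PΩ⁺_{2m}(3^a)`.** -/
theorem wf_plus (ht : TriRow.{u}) {K : Type v} [Group K] (h : Cfsg.IsPOmegaPlusChar 3 K) : WfRow.{u, v} 3 K := by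
  obtain ⟨F, _, _, hF, m, hm, ⟨e⟩⟩ := h
  have h3F : (3 : F) = 0 := CharP.cast_eq_zero F 3
  refine wf_iso e ?_
  rcases (by omega : m = 4 ∨ 5 ≤ m) with rfl | h5
  · rw [← coe_plusForm]
    rintro G _ _ S C D h ⟨e⟩
    have hG : Good (plusForm 4 F) := AutOrth.Main.good_plus (by norm_num)
    obtain ⟨c, hc⟩ := h.neC
    obtain ⟨d, hd⟩ := h.neD
    by_cases hcG : act h.normal (e.trans (AutOrth.Main.pe hG)) c ∈ (Psi (plusForm 4 F)).range
    · by_cases hdG : act h.normal (e.trans (AutOrth.Main.pe hG)) d ∈ (Psi (plusForm 4 F)).range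
      · exact wf_plus_four h3F h _ hc hd hcG hdG
      · exact ht F G S D C h.symm (e.trans (AutOrth.Main.pe hG)) d hd hdG
    · exact ht F G S C D h (e.trans (AutOrth.Main.pe hG)) c hc hcG
  · exact wf_plus_five h3F h5

/-- **The row**, given the triality row. -/
theorem wf_omega_own (ht : TriRow.{u}) {K : Type v} [Group K]
    (h : Cfsg.IsPOmegaOddChar 3 K ∨ Cfsg.IsPOmegaPlusChar 3 K ∨ Cfsg.IsPOmegaMinusChar 3 K) : WfRow.{u, v} 3 K := by
  rcases h with h | h | h
  · exact wf_odd h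
  · exact wf_plus ht h
  · exact wf_minus h

end Cfsg.Agent.H12.WfO
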